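import Cfsg.Agent.SporB.He.Quad
import Cfsg.Agent.CosetCert.HeldSp.Main
import Cfsg.Prelude.Def_Sporadic

/-! The Held group on 2058 points: the point stabiliser has the symplectic group `Sp₄(4)` with index two,
seen through the action on the 85 blocks of the suborbit of length 425. -/

set_option autoImplicit false
set_option maxRecDepth 100000

namespace Cfsg.Agent.SporB.Held

open Cfsg.Agent.CosetCert Cfsg.Agent.CosetEnum Cfsg.Agent.GFour25

/-- Point of the quadrangle under a point; `85` off the suborbit. -/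
noncomputable def piN (i : ℕ) : ℕ := piT.get 8 i

/-- The seven subgroup words. -/
noncomputable def word (i : Fin 7) : List ℕ := HeldSp.data.subs.getD i []

theorem sec_spec : ∀ k : Fin 85, secT.get 32 k < 2058 ∧ piN (secT.get 32 k) = k := by decide +kernel

/-- A section of `piN`. -/
noncomputable def sec (k : Fin 85) : Fin 2058 := ⟨secT.get 32 k, (sec_spec k).1⟩

theorem subs_length : HeldSp.data.subs.length = 7 := by decide +kernel

theorem quad_compat (i : Fin 7) (x : Fin 2058) (h : piN x < 85) :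
    piN (HeldSp.data.run (word i) x) = (quad i ⟨piN x, h⟩ : ℕ) := by
  have hb : ∀ i : Fin 7, allB (fun x => Nat.ble 2058 x || (Nat.ble 85 (piN x) ||
      Nat.beq (piN (HeldSp.data.run (word i) x)) ((quadT.getD i (.leaf 0)).get 8 (piN x)))) 12 0
        = true := by
    decide +kernel
  have h1 := allB_spec_zero (hb i) (by decide +kernel : 2058 ≤ 2 ^ 12) x.2
  rw [Bool.or_eq_true] at h1
  rcases h1 with h1 | h1
  · exact absurd (Nat.le_of_ble_eq_true h1) (not_le.2 x.2)
  rw [Bool.or_eq_true] at h1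
  rcases h1 with h1 | h1
  · exact absurd (Nat.le_of_ble_eq_true h1) (not_le.2 h)
  rw [Nat.eq_of_beq_eq_true h1, quad_table]

/-- `Q` is the permutation of the blocks induced by `p`. -/
def Induces (p : Equiv.Perm (Fin 2058)) (Q : Equiv.Perm (Fin 85)) : Prop :=
  ∀ (x : Fin 2058) (h : piN x < 85), piN (p x) = (Q ⟨piN x, h⟩ : ℕ)

theorem Induces.mul {p q : Equiv.Perm (Fin 2058)} {P Q : Equiv.Perm (Fin 85)} (hp : Induces p P)
    (hq : Induces q Q) : Induces (p * q) (P * Q) := by
  intro x h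
  have h1 := hq x h
  have h2 : piN (q x) < 85 := h1 ▸ (Q ⟨piN x, h⟩).2
  rw [Equiv.Perm.mul_apply, hp (q x) h2, Equiv.Perm.mul_apply]
  congr 2
  exact Fin.ext h1

theorem Induces.one : Induces 1 1 := fun _ _ => rfl

theorem Induces.unique {p : Equiv.Perm (Fin 2058)} {P Q : Equiv.Perm (Fin 85)} (hp : Induces p P)
    (hq : Induces p Q) : P = Q := by
  refine Equiv.ext fun k => Fin.ext ?_
  have hk : piN (sec k) < 85 := (sec_spec k).2.symm ▸ k.2
  have hkk : (⟨piN (sec k), hk⟩ : Fin 85) = k := Fin.ext (sec_spec k).2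
  have h := (hp (sec k) hk).symm.trans (hq (sec k) hk)
  rwa [hkk] at h

/-- The subgroup of index 2058 of the presented group. -/
abbrev heldSub : Subgroup Cfsg.Spor.He :=
  (Subgroup.closure ({Cfsg.Spor.He.a, Cfsg.Spor.He.c, Cfsg.Spor.He.d, Cfsg.Spor.He.e, Cfsg.Spor.He.f,
    (Cfsg.Spor.He.a * Cfsg.Spor.He.b) ^ 2,
    (Cfsg.Spor.He.b * Cfsg.Spor.He.c * Cfsg.Spor.He.d * Cfsg.Spor.He.e) ^ 7} :
      Set (FreeGroup Cfsg.Spor.He.Gen))).map (PresentedGroup.mk _)

theorem heldSub_eq :
    (Subgroup.closure {r | r ∈ HeldSp.gensList}).map (PresentedGroup.mk _) = heldSub := by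
  have hset : {r | r ∈ HeldSp.gensList} =
      ({Cfsg.Spor.He.a, Cfsg.Spor.He.c, Cfsg.Spor.He.d, Cfsg.Spor.He.e, Cfsg.Spor.He.f,
        (Cfsg.Spor.He.a * Cfsg.Spor.He.b) ^ 2,
        (Cfsg.Spor.He.b * Cfsg.Spor.He.c * Cfsg.Spor.He.d * Cfsg.Spor.He.e) ^ 7} :
          Set (FreeGroup Cfsg.Spor.He.Gen)) := by
    ext r
    simp [HeldSp.gensList]
  rw [hset]

/-- The permutation representation with the symplectic subgroup of the point stabiliser. -/
theorem realization_data (hHe : Cfsg.IsHe Cfsg.Spor.He) :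
    ∃ φ : Cfsg.Spor.He →* Equiv.Perm (Fin 2058), Function.Injective φ ∧
      (∀ x, x ∈ heldSub ↔ φ x 0 = 0) ∧ Cfsg.IsHe φ.range ∧
      MulAction.IsPretransitive φ.range (Fin 2058) ∧
      ∃ N : Subgroup (MulAction.stabilizer φ.range (0 : Fin 2058)),
        N.index = 2 ∧ Nonempty (N ≃* SpFourFour) := by
  classical
  obtain ⟨hsimp, hcard⟩ := hHe
  have := hsimp
  have hfin : Finite Cfsg.Spor.He := Nat.finite_of_card_ne_zero (by rw [hcard]; norm_num)
  obtain ⟨φ, hof, e, heq, he1⟩ :
      ∃ φ : Cfsg.Spor.He →* Equiv.Perm (Fin 2058),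
        (∀ a, φ (PresentedGroup.of a) =
          (PresData.genPerm HeldSp.valid a : Equiv.Perm (Fin 2058))) ∧
        ∃ e : Cfsg.Spor.He ⧸ (Subgroup.closure {r | r ∈ HeldSp.gensList}).map
            (PresentedGroup.mk _) ≃ Fin 2058,
          (∀ g q, e (g • q) = φ g (e q)) ∧
            e ((1 : Cfsg.Spor.He) : Cfsg.Spor.He ⧸ _) = 0 :=
    enum_spec HeldSp.valid HeldSp.word_letters HeldSp.base_letters
  let R : Subgroup (Equiv.Perm (Fin 2058)) := φ.range
  have htr : MulAction.IsPretransitive R (Fin 2058) := by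
    refine ⟨fun x y => ?_⟩
    obtain ⟨g, hg⟩ := QuotientGroup.mk_surjective (e.symm x)
    obtain ⟨g', hg'⟩ := QuotientGroup.mk_surjective (e.symm y)
    refine ⟨⟨φ (g' * g⁻¹), ⟨_, rfl⟩⟩, ?_⟩
    have h := heq (g' * g⁻¹) (g : Cfsg.Spor.He ⧸ _)
    rw [MulAction.Quotient.smul_coe, smul_eq_mul, inv_mul_cancel_right, hg', hg,
      Equiv.apply_symm_apply, Equiv.apply_symm_apply] at h
    exact h.symm
  have hinj : Function.Injective φ := by
    rw [← MonoidHom.ker_eq_bot_iff]
    rcases hsimp.eq_bot_or_eq_top_of_normal φ.ker inferInstance with h | h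
    · exact h
    · exfalso
      obtain ⟨⟨p, g, rfl⟩, hp⟩ := htr.exists_smul_eq (0 : Fin 2058) 1
      have hg : φ g = 1 := MonoidHom.mem_ker.1 (h ▸ Subgroup.mem_top g)
      have h' : φ g (0 : Fin 2058) = 1 := hp
      rw [hg] at h'
      exact absurd h' (by decide)
  have eR : Cfsg.Spor.He ≃* R := MonoidHom.ofInjective hinj
  have hcardR : Nat.card R = 4030387200 := by rw [← Nat.card_congr eR.toEquiv, hcard]
  have : Nontrivial R := eR.symm.toEquiv.nontrivial
  have hmem : ∀ x, x ∈ heldSub ↔ φ x 0 = 0 := by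
    intro x
    have h := heq x ((1 : Cfsg.Spor.He) : Cfsg.Spor.He ⧸ _)
    rw [he1, MulAction.Quotient.smul_coe, smul_eq_mul, mul_one] at h
    rw [← h, ← he1, e.apply_eq_iff_eq, QuotientGroup.eq, mul_one, inv_mem_iff, heldSub_eq]
  refine ⟨φ, hinj, hmem,
    ⟨IsSimpleGroup.isSimpleGroup_of_surjective eR.toMonoidHom eR.surjective, hcardR⟩, htr, ?_⟩
  set S := MulAction.stabilizer R (0 : Fin 2058) with hS
  have hcardS : Nat.card S = 1958400 := by
    have h := (MulAction.stabilizer R (0 : Fin 2058)).card_mul_index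
    rw [MulAction.index_stabilizer_of_transitive, hcardR, Nat.card_fin, ← hS] at h
    omega
  -- values of the subgroup words
  let gen : Fin 7 → Cfsg.Spor.He := fun i =>
    PresentedGroup.mk _ (pval (HeldSp.data.act FreeGroup.of) (word i))
  have hword : ∀ i, word i ∈ HeldSp.data.subs := fun i => by
    have h : (i : ℕ) < HeldSp.data.subs.length := by rw [subs_length]; exact i.2
    rw [word, List.getD_eq_getElem _ _ h]
    exact List.getElem_mem h
  have hval : ∀ i (x : Fin 2058), (φ (gen i) x : ℕ) = HeldSp.data.run (word i) x := by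
    intro i x
    show (φ (PresentedGroup.mk _ _) x : ℕ) = _
    rw [HeldSp.data.map_pval (PresentedGroup.mk _), HeldSp.data.map_pval φ]
    rw [show (φ ∘ PresentedGroup.mk _ ∘ FreeGroup.of) = PresData.genPerm HeldSp.valid from
      funext hof]
    exact PresData.letters_words HeldSp.valid
      (HeldSp.word_letters _ (List.mem_append_right _ (hword i)))
  have hgood : ∀ i, Induces (φ (gen i)) (quad i) := fun i x h => by
    rw [hval]
    exact quad_compat i x h
  have hfix : ∀ i, φ (gen i) (0 : Fin 2058) = 0 := by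
    have h0 : ∀ i : Fin 7, HeldSp.data.run (word i) 0 = 0 := by decide +kernel
    intro i
    apply Fin.ext
    rw [hval]
    exact h0 i
  -- every element of the stabiliser induces a permutation of the blocks
  have hall : ∀ s : S, ∃ Q, Induces ((s : R) : Equiv.Perm (Fin 2058)) Q := by
    rintro ⟨⟨p, x, rfl⟩, hp⟩
    have hp' : φ x (0 : Fin 2058) = 0 := hp
    have hx : x ∈ (Subgroup.closure {r | r ∈ HeldSp.gensList}).map (PresentedGroup.mk _) := by
      have h := heq x ((1 : Cfsg.Spor.He) : Cfsg.Spor.He ⧸ _)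
      rw [he1] at h
      rw [hp', ← he1] at h
      have h3 := e.injective h
      rw [MulAction.Quotient.smul_coe, smul_eq_mul, mul_one] at h3
      simpa using QuotientGroup.eq.1 h3.symm
    have hxm : φ x ∈ ((Subgroup.closure {r | r ∈ HeldSp.gensList}).map
        (PresentedGroup.mk _)).map φ := ⟨x, hx, rfl⟩
    rw [Subgroup.map_map, MonoidHom.map_closure, ← Subgroup.mem_toSubmonoid,
      Subgroup.closure_toSubmonoid_of_finite] at hxm
    show ∃ Q, Induces (φ x) Q
    clear hp hp' hx
    generalize φ x = p at hxm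
    induction hxm using Submonoid.closure_induction with
    | one => exact ⟨1, Induces.one⟩
    | mul a b _ _ ha hb =>
      obtain ⟨P, hP⟩ := ha
      obtain ⟨Q, hQ⟩ := hb
      exact ⟨P * Q, hP.mul hQ⟩
    | mem p hp =>
      obtain ⟨r, hr, rfl⟩ := hp
      obtain ⟨u, hu, rfl⟩ := HeldSp.valid.le_subs r hr
      obtain ⟨i, hi, rfl⟩ := List.getElem_of_mem hu
      have hi7 : i < 7 := subs_length ▸ hi
      refine ⟨quad ⟨i, hi7⟩, ?_⟩
      have h := hgood ⟨i, hi7⟩
      simp only [gen, word, List.getD_eq_getElem _ _ hi] at h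
      exact h
  choose f hf using hall
  let ρ : S →* Equiv.Perm (Fin 85) :=
    { toFun := f
      map_one' := (hf 1).unique Induces.one
      map_mul' := fun s t => (hf (s * t)).unique ((hf s).mul (hf t)) }
  let sgen : Fin 7 → S := fun i => ⟨⟨φ (gen i), gen i, rfl⟩, hfix i⟩
  have hρ : ∀ i, ρ (sgen i) = quad i := fun i => (hf (sgen i)).unique (hgood i)
  let χ : S →* ℤˣ := Equiv.Perm.sign.comp ρ
  have hχ : Function.Surjective χ := by
    intro u
    rcases Int.units_eq_one_or u with rfl | rfl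
    · exact ⟨1, map_one χ⟩
    · exact ⟨sgen 5, by show Equiv.Perm.sign (ρ (sgen 5)) = -1; rw [hρ, sign_quad_five]⟩
  refine ⟨χ.ker, ?_, ?_⟩
  · rw [Subgroup.index_ker, MonoidHom.range_eq_top.2 hχ, Subgroup.card_top, Nat.card_eq_fintype_card]
    rfl
  have hidx : χ.ker.index = 2 := by
    rw [Subgroup.index_ker, MonoidHom.range_eq_top.2 hχ, Subgroup.card_top, Nat.card_eq_fintype_card]
    rfl
  have hcardN : Nat.card χ.ker = 979200 := by
    have h := χ.ker.card_mul_index
    rw [hidx, hcardS] at h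
    omega
  let ψ : χ.ker →* Equiv.Perm (Fin 85) := ρ.comp χ.ker.subtype
  have hle : pointHom.range ≤ ψ.range := by
    rw [range_pointHom_eq, Subgroup.closure_le]
    rintro _ ⟨l, rfl⟩
    refine ⟨⟨sgen (sixIdx l), ?_⟩, hρ _⟩
    show Equiv.Perm.sign (ρ (sgen (sixIdx l))) = 1
    rw [hρ, sign_quad_six]
  have hfinS : Finite χ.ker := Nat.finite_of_card_ne_zero (by rw [hcardN]; norm_num)
  have hrange : Nat.card ψ.range ≤ 979200 :=
    hcardN ▸ Nat.card_le_card_of_surjective ψ.rangeRestrict ψ.rangeRestrict_surjective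
  have heqr : pointHom.range = ψ.range :=
    Subgroup.eq_of_le_of_card_ge hle (by rw [card_range_pointHom]; exact hrange)
  have hbij : Function.Bijective ψ.rangeRestrict :=
    (Nat.bijective_iff_surjective_and_card _).2 ⟨ψ.rangeRestrict_surjective, by
      rw [← heqr, card_range_pointHom, hcardN]⟩
  exact ⟨(MulEquiv.ofBijective ψ.rangeRestrict hbij).trans
    ((MulEquiv.subgroupCongr heqr.symm).trans (MonoidHom.ofInjective pointHom_injective).symm)⟩

/-- **The realization**, given the order and simplicity of the presented group. -/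
theorem realization (hHe : Cfsg.IsHe Cfsg.Spor.He) :
    ∃ H : Subgroup (Equiv.Perm (Fin 2058)), Cfsg.IsHe H ∧ MulAction.IsPretransitive H (Fin 2058) ∧
      ∃ (F : Type) (_ : Field F) (_ : Fintype F), Fintype.card F = 4 ∧
        ∃ N : Subgroup (MulAction.stabilizer H (0 : Fin 2058)),
          N.index = 2 ∧ Nonempty (N ≃* Matrix.symplecticGroup (Fin 2) F) := by
  obtain ⟨φ, -, -, h1, h2, N, h3, h4⟩ := realization_data hHe
  exact ⟨φ.range, h1, h2, F4, instFieldF4, instFintypeF4, card_F4, N, h3, h4⟩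

/-- The subgroup of index 2058 has a normal subgroup of index two isomorphic to `Sp₄(4)`. -/
theorem heldSub_symplectic (hHe : Cfsg.IsHe Cfsg.Spor.He) :
    ∃ (N : Subgroup heldSub) (K : Type) (_ : Field K) (_ : Fintype K), N.Normal ∧ N.index = 2 ∧
      Fintype.card K = 4 ∧ Nonempty (N ≃* Matrix.symplecticGroup (Fin 2) K) := by
  obtain ⟨φ, hinj, hmem, -, -, N, hN, ⟨eN⟩⟩ := realization_data hHe
  let f : heldSub →* MulAction.stabilizer φ.range (0 : Fin 2058) :=
    { toFun := fun x => ⟨⟨φ x, x, rfl⟩, (hmem x).1 x.2⟩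
      map_one' := Subtype.ext (Subtype.ext (map_one φ))
      map_mul' := fun x y => Subtype.ext (Subtype.ext (map_mul φ x.1 y.1)) }
  have hf : Function.Bijective f := by
    refine ⟨fun x y h => Subtype.ext (hinj (congrArg (fun z => (z.1.1 : Equiv.Perm (Fin 2058))) h)), ?_⟩
    rintro ⟨⟨p, x, rfl⟩, hp⟩
    exact ⟨⟨x, (hmem x).2 hp⟩, rfl⟩
  let ef := MulEquiv.ofBijective f hf
  have hidx : (N.comap ef.toMonoidHom).index = 2 := by
    rw [Subgroup.index_comap_of_surjective _ ef.surjective, hN]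
  refine ⟨N.comap ef.toMonoidHom, F4, instFieldF4, instFintypeF4,
    Subgroup.normal_of_index_eq_two hidx, hidx, card_F4, ⟨MulEquiv.trans ?_ eN⟩⟩
  exact
    { toFun := fun x => ⟨ef x.1, x.2⟩
      invFun := fun y => ⟨ef.symm y.1, by
        show ef (ef.symm y.1) ∈ N
        rw [ef.apply_symm_apply]
        exact y.2⟩
      left_inv := fun x => Subtype.ext (ef.symm_apply_apply x.1)
      right_inv := fun y => Subtype.ext (ef.apply_symm_apply y.1)
      map_mul' := fun x y => Subtype.ext (map_mul ef x.1 y.1) }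

end Cfsg.Agent.SporB.Held
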