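import Cfsg.Agent.SporB.He.Data
import Cfsg.Agent.SympSub.Count

/-! The symplectic group in dimension four over the field of four elements as permutations of the 85
projective points, generated by six explicit matrices. -/

set_option autoImplicit false
set_option maxRecDepth 100000

namespace Cfsg.Agent.SporB.Held

open Cfsg.Agent.CosetCert Cfsg.Agent.CosetEnum Cfsg.Agent.GFour25
open Matrix

/-- Index set of the coordinates. -/
abbrev Crd : Type := Fin 2 ⊕ Fin 2

/-- The symplectic group over the field of four elements. -/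
abbrev SpFourFour : Submonoid (Matrix Crd Crd F4) := Matrix.symplecticGroup (Fin 2) F4

/-- Position of a coordinate. -/
def pos : Crd → ℕ
  | .inl i => i.val
  | .inr i => i.val + 2

/-- Number of a field element. -/
def code4 (x : F4) : ℕ := (if x.re then 1 else 0) + (if x.im then 2 else 0)

/-- Field element of a number. -/
def elt4 (n : ℕ) : F4 := ⟨Nat.beq (n % 2) 1, Nat.beq (n / 2 % 2) 1⟩

/-- Number of a vector. -/
def enc (v : Crd → F4) : ℕ :=
  code4 (v (.inl 0)) + 4 * code4 (v (.inl 1)) + 16 * code4 (v (.inr 0)) + 64 * code4 (v (.inr 1))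

/-- Index of the point of a vector. -/
noncomputable def idx (v : Crd → F4) : Fin 85 :=
  ⟨idxT.get 8 (enc v) % 85, Nat.mod_lt _ (Nat.succ_pos _)⟩

/-- Representative of a point. -/
noncomputable def pt (k : Fin 85) : Crd → F4 := fun i => elt4 (ptT.get 8 k.val / 4 ^ pos i)

theorem pt_ne_zero : ∀ k : Fin 85, pt k ≠ 0 := by decide +kernel

theorem idx_pt : ∀ k : Fin 85, idx (pt k) = k := by decide +kernel

theorem idx_smul : ∀ (c : F4) (v : Crd → F4), c ≠ 0 → idx (c • v) = idx v := by decide +kernel

theorem eq_smul_pt : ∀ v : Crd → F4, v ≠ 0 → ∃ c : F4, c ≠ 0 ∧ v = c • pt (idx v) := by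
  decide +kernel

theorem mulVec_ne_zero (g : SpFourFour) {v : Crd → F4} (h : v ≠ 0) :
    (g : Matrix Crd Crd F4) *ᵥ v ≠ 0 := by
  intro h0
  apply h
  have e : ((g⁻¹ : SpFourFour) : Matrix Crd Crd F4) * (g : Matrix Crd Crd F4) = 1 := by
    rw [← Submonoid.coe_mul, inv_mul_cancel, Submonoid.coe_one]
  have h1 := congrArg (fun w => ((g⁻¹ : SpFourFour) : Matrix Crd Crd F4) *ᵥ w) h0
  simpa [Matrix.mulVec_mulVec, e] using h1

/-- The image of a point. -/
noncomputable def moveFun (g : SpFourFour) (k : Fin 85) : Fin 85 :=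
  idx ((g : Matrix Crd Crd F4) *ᵥ pt k)

theorem moveFun_one (k : Fin 85) : moveFun 1 k = k := by
  rw [moveFun, Submonoid.coe_one, Matrix.one_mulVec, idx_pt]

theorem moveFun_mul (g h : SpFourFour) (k : Fin 85) :
    moveFun (g * h) k = moveFun g (moveFun h k) := by
  obtain ⟨c, hc, e⟩ := eq_smul_pt _ (mulVec_ne_zero h (pt_ne_zero k))
  unfold moveFun
  rw [Submonoid.coe_mul, ← Matrix.mulVec_mulVec]
  conv_lhs => rw [e]
  rw [Matrix.mulVec_smul, idx_smul c _ hc]

/-- The action on the 85 points. -/
noncomputable def pointHom : SpFourFour →* Equiv.Perm (Fin 85) where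
  toFun g :=
    { toFun := moveFun g
      invFun := moveFun g⁻¹
      left_inv := fun k => by rw [← moveFun_mul, inv_mul_cancel, moveFun_one]
      right_inv := fun k => by rw [← moveFun_mul, mul_inv_cancel, moveFun_one] }
  map_one' := Equiv.ext moveFun_one
  map_mul' g h := Equiv.ext fun k => moveFun_mul g h k

theorem pointHom_apply (g : SpFourFour) (k : Fin 85) : pointHom g k = moveFun g k := rfl

theorem scalar_sq : ∀ μ : F4, μ * μ = 1 → μ = 1 := by decide

theorem pointHom_injective : Function.Injective pointHom := by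
  rw [injective_iff_map_eq_one]
  intro g hg
  set A := (g : Matrix Crd Crd F4) with hA
  have hline : ∀ v : Crd → F4, v ≠ 0 → ∃ μ : F4, A *ᵥ v = μ • v := by
    intro v hv
    obtain ⟨c, hc, e⟩ := eq_smul_pt v hv
    obtain ⟨d, _, e'⟩ := eq_smul_pt _ (mulVec_ne_zero g (pt_ne_zero (idx v)))
    have hk : idx (A *ᵥ pt (idx v)) = idx v := by
      have := congrArg (fun p : Equiv.Perm (Fin 85) => p (idx v)) hg
      simpa [pointHom_apply, moveFun, hA] using this
    rw [← hA] at e'
    rw [hk] at e'
    refine ⟨d, ?_⟩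
    conv_lhs => rw [e]
    conv_rhs => rw [e]
    rw [Matrix.mulVec_smul, e', smul_comm]
  have hoff : ∀ i j, i ≠ j → A i j = 0 := by
    intro i j hij
    have hne : (Pi.single j (1 : F4) : Crd → F4) ≠ 0 := by
      intro h
      have := congrFun h j
      simp at this
    obtain ⟨μ, hμ⟩ := hline _ hne
    have := congrFun hμ i
    simpa [Matrix.mulVec_single, hij] using this
  obtain ⟨μ, hμ⟩ := hline (fun _ => 1) (fun h => one_ne_zero (congrFun h (Sum.inl 0)))
  have hdiag : ∀ i, A i i = μ := by
    intro i
    have h1 := congrFun hμ i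
    simp only [Matrix.mulVec, dotProduct, mul_one, Pi.smul_apply, smul_eq_mul] at h1
    rwa [Finset.sum_eq_single i (fun b _ hb => hoff i b (Ne.symm hb))
      (fun h => absurd (Finset.mem_univ i) h)] at h1
  have hAμ : A = μ • (1 : Matrix Crd Crd F4) := by
    ext i j
    by_cases h : i = j
    · subst h; simp [hdiag]
    · simp [hoff i j h, h]
  have hmem := SymplecticGroup.mem_iff.1 g.2
  rw [← hA, hAμ] at hmem
  have h2 := congrFun (congrFun hmem (Sum.inl 0)) (Sum.inr 0)
  simp [Matrix.J, mul_comm] at h2
  have hμ1 : μ = 1 := scalar_sq μ (by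
    simpa [pow_two] using h2)
  apply Subtype.ext
  rw [← hA, hAμ, hμ1, one_smul]
  rfl

theorem card_spFourFour : Nat.card SpFourFour = 979200 := by
  rw [SympSub.card_symplecticGroup, card_F4]
  decide +kernel

/-- The entries of a matrix. -/
def rowsMat (r : List (List F4)) : Matrix Crd Crd F4 :=
  Matrix.of fun i j => (r.getD (pos i) []).getD (pos j) 0

theorem rowsMat_mem : ∀ l : Fin 6,
    rowsMat (matRows.getD l []) * Matrix.J (Fin 2) F4 * (rowsMat (matRows.getD l []))ᵀ =
      Matrix.J (Fin 2) F4 := by
  decide +kernel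

/-- The six matrices. -/
noncomputable def mat (l : Fin 6) : SpFourFour :=
  ⟨rowsMat (matRows.getD l []), SymplecticGroup.mem_iff.2 (rowsMat_mem l)⟩

/-- Product of transpositions. -/
def swapProd (s : List (Fin 85 × Fin 85)) : Equiv.Perm (Fin 85) :=
  (s.map fun p => Equiv.swap p.1 p.2).prod

theorem sign_swapProd : ∀ {s : List (Fin 85 × Fin 85)}, (∀ p ∈ s, p.1 ≠ p.2) →
    Equiv.Perm.sign (swapProd s) = (-1) ^ s.length := by
  intro s
  induction s with
  | nil => intro _; simp [swapProd]
  | cons p t ih =>
    intro h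
    have e : swapProd (p :: t) = Equiv.swap p.1 p.2 * swapProd t := by simp [swapProd]
    rw [e, map_mul, Equiv.Perm.sign_swap (h p List.mem_cons_self),
      ih fun q hq => h q (List.mem_cons_of_mem _ hq), List.length_cons, pow_succ']

/-- The seven permutations of the points. -/
def quad (i : Fin 7) : Equiv.Perm (Fin 85) := swapProd (swaps.getD i [])

theorem swaps_ne (i : Fin 7) : ∀ p ∈ swaps.getD i [], p.1 ≠ p.2 := by
  have h : ∀ i : Fin 7, ((swaps.getD i []).all fun p => decide (p.1 ≠ p.2)) = true := by
    decide +kernel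
  intro p hp
  exact of_decide_eq_true (List.all_eq_true.1 (h i) p hp)

theorem quad_table : ∀ i : Fin 7, ∀ k : Fin 85,
    (quad i k : ℕ) = (quadT.getD i (.leaf 0)).get 8 k := by
  decide +kernel

/-- Position among the seven of one of the six words. -/
def sixIdx : Fin 6 → Fin 7 := ![0, 1, 2, 3, 4, 6]

theorem sign_quad_six (l : Fin 6) : Equiv.Perm.sign (quad (sixIdx l)) = 1 := by
  rw [quad, sign_swapProd (swaps_ne _)]
  revert l
  decide +kernel

theorem sign_quad_five : Equiv.Perm.sign (quad 5) = -1 := by
  rw [quad, sign_swapProd (swaps_ne _)]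
  decide +kernel

theorem pointHom_mat (l : Fin 6) : pointHom (mat l) = quad (sixIdx l) := by
  have h : ∀ l : Fin 6, ∀ k : Fin 85,
      idx (rowsMat (matRows.getD l []) *ᵥ pt k) = quad (sixIdx l) k := by decide +kernel
  exact Equiv.ext fun k => h l k

/-- The table of the six letters. -/
noncomputable def letterT (l i : ℕ) : ℕ := (sixT.getD l (.leaf 0)).get 8 i

/-- The permutation of a letter. -/
noncomputable def letterPerm : ℕ → Equiv.Perm (Fin 85)
  | 1 => quad 0
  | 2 => quad 1
  | 3 => quad 2
  | 4 => quad 3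
  | 5 => quad 4
  | 6 => quad 6
  | _ => 1

theorem letterPerm_spec : ∀ l ∈ [1, 2, 3, 4, 5, 6], ∀ i : Fin 85,
    (letterPerm l i : ℕ) = letterT l i := by
  decide +kernel

theorem chain_valid : ChainValid 85 letterT [1, 2, 3, 4, 5, 6] [] levels := by
  have ok : ∀ L ∈ levels, ∀ r : ℕ, r < L.size → L.ok 85 letterT r = true := by decide +kernel
  simp only [levels, List.mem_cons, List.not_mem_nil, or_false, forall_eq_or_imp, forall_eq] at ok
  obtain ⟨h0, h1, h2, h3, h4, h5⟩ := ok
  refine ⟨by decide +kernel, h0, by decide +kernel, h1, by decide +kernel, h2, by decide +kernel,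
    h3, by decide +kernel, h4, by decide +kernel, h5, trivial⟩

/-- The six permutations generate the whole image of the symplectic group. -/
theorem range_pointHom_eq :
    pointHom.range = Subgroup.closure (Set.range fun l => quad (sixIdx l)) := by
  set R := Subgroup.closure (Set.range fun l => quad (sixIdx l))
  have hle : R ≤ pointHom.range := by
    rw [Subgroup.closure_le]
    rintro _ ⟨l, rfl⟩
    exact ⟨mat l, pointHom_mat l⟩
  have hlet : ∀ l ∈ [1, 2, 3, 4, 5, 6], letterPerm l ∈ R := by
    intro l hl
    simp only [List.mem_cons, List.not_mem_nil, or_false] at hl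
    rcases hl with rfl | rfl | rfl | rfl | rfl | rfl
    · exact Subgroup.subset_closure ⟨0, rfl⟩
    · exact Subgroup.subset_closure ⟨1, rfl⟩
    · exact Subgroup.subset_closure ⟨2, rfl⟩
    · exact Subgroup.subset_closure ⟨3, rfl⟩
    · exact Subgroup.subset_closure ⟨4, rfl⟩
    · exact Subgroup.subset_closure ⟨5, rfl⟩
  have hlow := chainProd_le_card letterT _ letterPerm letterPerm_spec R hlet levels chain_valid
  have hprod : chainProd levels = 979200 := by decide +kernel
  refine (Subgroup.eq_of_le_of_card_ge hle ?_).symm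
  rw [← Nat.card_congr (MonoidHom.ofInjective pointHom_injective).toEquiv, card_spFourFour, ← hprod]
  exact hlow

theorem card_range_pointHom : Nat.card pointHom.range = 979200 := by
  rw [← Nat.card_congr (MonoidHom.ofInjective pointHom_injective).toEquiv, card_spFourFour]

end Cfsg.Agent.SporB.Held
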